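import Mathlib
import Cfsg.Agent.H31.LineRep
import Cfsg.Agent.H31.SylowBasic

/-!
No finite group has exactly twenty-one Sylow 5-subgroups.
-/

set_option autoImplicit false
set_option linter.unusedSectionVars false
set_option linter.unusedSimpArgs false
set_option linter.unusedVariables false

namespace Cfsg.Agent.H31.TwentyOne

open scoped Pointwise

variable {G : Type*} [Group G] [Finite G]

instance fact_five : Fact (Nat.Prime 5) := ⟨by norm_num⟩

theorem fix_unique {p : ℕ} [Fact p.Prime] (P Q : Sylow p G)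
    (h : ∀ x ∈ (P : Subgroup G), x • Q = Q) : Q = P := by
  have hN : (P : Subgroup G) ≤ Subgroup.normalizer ((Q : Subgroup G) : Set G) := fun x hx =>
    Sylow.smul_eq_iff_mem_normalizer.1 (h x hx)
  have h2 : (P : Subgroup G) ⊓ Subgroup.normalizer ((Q : Subgroup G) : Set G) = (P : Subgroup G) ⊓ Q :=
    IsPGroup.inf_normalizer_sylow P.isPGroup' Q
  rw [inf_eq_left.2 hN] at h2
  exact Sylow.ext (P.is_maximal' Q.isPGroup' (h2.le.trans inf_le_right))

/-- The stabiliser in `P` of `Q` is the intersection. -/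
theorem mem_inf_iff_smul {p : ℕ} [Fact p.Prime] (P Q : Sylow p G) (x : G)
    (hx : x ∈ (P : Subgroup G)) : x • Q = Q ↔ x ∈ (P : Subgroup G) ⊓ Q := by
  refine ⟨fun h => ?_, fun h => Sylow.smul_eq_iff_mem_normalizer.2 (Subgroup.le_normalizer h.2)⟩
  rw [← IsPGroup.inf_normalizer_sylow P.isPGroup' Q]
  exact ⟨hx, Sylow.smul_eq_iff_mem_normalizer.1 h⟩

/-- Orbit data: distinct Sylow 5-subgroups meet in index five when there are twenty-one. -/
theorem inter_index_five (h21 : Nat.card (Sylow 5 G) = 21) (P Q : Sylow 5 G) (hne : P ≠ Q) :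
    5 * Nat.card ↥((P : Subgroup G) ⊓ Q) = Nat.card ↥(P : Subgroup G) ∧
      Nat.card (MulAction.orbit (P : Subgroup G) Q) = 5 := by
  classical
  have hst : MulAction.stabilizer (P : Subgroup G) Q =
      ((P : Subgroup G) ⊓ Q).subgroupOf (P : Subgroup G) := by
    ext ⟨x, hx⟩
    rw [MulAction.mem_stabilizer_iff, Subgroup.mem_subgroupOf]
    exact mem_inf_iff_smul P Q x hx
  have hcard := Subgroup.card_mul_index (MulAction.stabilizer (P : Subgroup G) Q)
  rw [MulAction.index_stabilizer, hst,
    Nat.card_congr (Subgroup.subgroupOfEquivOfLe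
      (inf_le_left : (P : Subgroup G) ⊓ Q ≤ P)).toEquiv] at hcard
  obtain ⟨i, hi⟩ := IsPGroup.card_orbit P.isPGroup' (G := (P : Subgroup G)) Q
  rw [← Nat.card_coe_set_eq] at hcard
  have hlt : Nat.card (MulAction.orbit (P : Subgroup G) Q) < 21 := by
    rw [← h21]
    refine Nat.lt_of_le_of_ne (Finite.card_subtype_le _) fun he => ?_
    have hall : MulAction.orbit (P : Subgroup G) Q = Set.univ := by
      refine Set.eq_of_subset_of_ncard_le (Set.subset_univ _) ?_ Set.finite_univ
      rw [Set.ncard_univ, ← he, Nat.card_coe_set_eq]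
    obtain ⟨⟨x, hx⟩, hxQ⟩ : P ∈ MulAction.orbit (P : Subgroup G) Q := hall ▸ Set.mem_univ _
    have : x • P = P := Sylow.smul_eq_iff_mem_normalizer.2 (Subgroup.le_normalizer hx)
    exact hne (MulAction.injective x (this.trans (show P = x • Q from hxQ.symm)))
  have hi1 : i = 1 := by
    rcases i with _ | _ | i
    · exfalso
      rw [pow_zero, Nat.card_eq_one_iff_unique] at hi
      obtain ⟨hsub, -⟩ := hi
      refine hne (fix_unique P Q fun x hx => ?_).symm
      exact congrArg Subtype.val (Subsingleton.elim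
        (⟨x • Q, ⟨⟨x, hx⟩, rfl⟩⟩ : MulAction.orbit (P : Subgroup G) Q)
        ⟨Q, MulAction.mem_orbit_self _⟩)
    · rfl
    · exfalso
      have : 25 ∣ Nat.card (MulAction.orbit (P : Subgroup G) Q) :=
        hi ▸ (show 5 ^ 2 ∣ 5 ^ (i + 1 + 1) from pow_dvd_pow _ (by omega))
      have hpos : 0 < Nat.card (MulAction.orbit (P : Subgroup G) Q) := by
        rw [hi]; exact pow_pos (by norm_num) _
      have := Nat.le_of_dvd hpos this
      omega
  subst hi1
  rw [pow_one] at hi
  rw [hi] at hcard
  exact ⟨by omega, hi⟩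

/-- In a group acting faithfully on its twenty-one Sylow 5-subgroups these have order five. -/
theorem card_eq_five (h21 : Nat.card (Sylow 5 G) = 21)
    (hf : ∀ x : G, (∀ Q : Sylow 5 G, x • Q = Q) → x = 1) (P : Sylow 5 G) :
    Nat.card ↥(P : Subgroup G) = 5 := by
  classical
  have := Fintype.ofFinite (Sylow 5 G)
  have : Nontrivial (Sylow 5 G) := by
    rw [← Finite.one_lt_card_iff_nontrivial, h21]; norm_num
  obtain ⟨Q, hQ⟩ := exists_ne P
  obtain ⟨hPQ, horb⟩ := inter_index_five h21 P Q hQ.symm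
  by_contra h5
  set D := (P : Subgroup G) ⊓ Q with hD
  have hcardeq : ∀ R S : Sylow 5 G, R ≠ S → Nat.card ↥((R : Subgroup G) ⊓ S) = Nat.card ↥D := by
    intro R S hne
    have h1 := (inter_index_five h21 R S hne).1
    have h2 : Nat.card ↥(R : Subgroup G) = Nat.card ↥(P : Subgroup G) := by
      rw [R.card_eq_multiplicity, P.card_eq_multiplicity]
    omega
  have hDne : D ≠ ⊥ := by
    intro h; rw [h, Subgroup.card_bot] at hPQ; exact h5 hPQ.symm
  obtain ⟨R, hR⟩ : ∃ R : Sylow 5 G, ¬ D ≤ R := by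
    by_contra h
    push Not at h
    refine hDne ((Subgroup.eq_bot_iff_forall _).2 fun x hx => hf x fun S => ?_)
    exact Sylow.smul_eq_iff_mem_normalizer.2 (Subgroup.le_normalizer (h S hx))
  -- the block of points containing `D`
  let B : Finset (Sylow 5 G) := Finset.univ.filter fun A => D ≤ (A : Subgroup G)
  have hB : 6 ≤ B.card := by
    have hsub : insert P (MulAction.orbit (P : Subgroup G) Q).toFinset ⊆ B := by
      intro A hA
      rw [Finset.mem_insert, Set.mem_toFinset] at hA
      refine Finset.mem_filter.2 ⟨Finset.mem_univ _, ?_⟩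
      rcases hA with rfl | ⟨⟨x, hx⟩, rfl⟩
      · exact inf_le_left
      · intro d hd
        change d ∈ ((x • Q : Sylow 5 G) : Subgroup G)
        have hd' : x⁻¹ * d * x ∈ D := by
          -- `D` has index five in the five-group `P`
          have : (D.subgroupOf (P : Subgroup G)).Normal := by
            apply Subgroup.normal_of_index_eq_minFac_card
            have hidx := Subgroup.card_mul_index (D.subgroupOf (P : Subgroup G))
            rw [Nat.card_congr (Subgroup.subgroupOfEquivOfLe inf_le_left).toEquiv] at hidx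
            have h5i : (D.subgroupOf (P : Subgroup G)).index = 5 :=
              Nat.eq_of_mul_eq_mul_left Nat.card_pos (hidx.trans (hPQ.symm.trans (mul_comm _ _)))
            obtain ⟨k, hk⟩ := P.isPGroup'.exists_card_eq
            have hk0 : k ≠ 0 := by
              rintro rfl; rw [pow_zero] at hk; omega
            rw [h5i, hk, Nat.pow_minFac hk0, Nat.Prime.minFac_eq (by norm_num)]
          have := this.conj_mem ⟨d, hd.1⟩ hd ⟨x⁻¹, inv_mem hx⟩
          rw [Subgroup.mem_subgroupOf] at this
          simpa using this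
        rw [Sylow.coe_subgroup_smul]
        exact ⟨x⁻¹ * d * x, hd'.2, by simp [mul_assoc]⟩
    refine le_trans ?_ (Finset.card_le_card hsub)
    rw [Finset.card_insert_of_notMem, Set.toFinset_card, ← Nat.card_eq_fintype_card, horb]
    rw [Set.mem_toFinset]
    rintro ⟨⟨x, hx⟩, hxQ⟩
    have : x • P = P := Sylow.smul_eq_iff_mem_normalizer.2 (Subgroup.le_normalizer hx)
    exact hQ (MulAction.injective x ((show x • Q = P from hxQ).trans this.symm))
  -- intersections at `R`
  let I : Finset (Subgroup G) := (Finset.univ.erase R).image fun A : Sylow 5 G => (R : Subgroup G) ⊓ (A : Subgroup G)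
  have hI : 5 * I.card ≤ 20 := by
    have hc : (Finset.univ.erase R).card = 20 := by
      rw [Finset.card_erase_of_mem (Finset.mem_univ _), Finset.card_univ,
        ← Nat.card_eq_fintype_card, h21]
    rw [← hc]
    refine Finset.mul_card_image_le_card _ 5 fun E hE => ?_
    obtain ⟨A, hA, rfl⟩ := Finset.mem_image.1 hE
    have hRA : R ≠ A := (Finset.ne_of_mem_erase hA).symm
    obtain ⟨hidx, horbA⟩ := inter_index_five h21 R A hRA
    have hsub : (MulAction.orbit (R : Subgroup G) A).toFinset ⊆
        (Finset.univ.erase R).filter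
          (fun A' : Sylow 5 G => (R : Subgroup G) ⊓ (A' : Subgroup G) = (R : Subgroup G) ⊓ A) := by
      intro A' hA'
      rw [Set.mem_toFinset] at hA'
      obtain ⟨⟨x, hx⟩, rfl⟩ := hA'
      have hxR : x • R = R := Sylow.smul_eq_iff_mem_normalizer.2 (Subgroup.le_normalizer hx)
      have hne' : R ≠ x • A := fun e => hRA (MulAction.injective x (hxR.trans e))
      refine Finset.mem_filter.2 ⟨Finset.mem_erase.2 ⟨hne'.symm, Finset.mem_univ _⟩, ?_⟩
      change (R : Subgroup G) ⊓ ((x • A : Sylow 5 G) : Subgroup G) = _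
      refine (Subgroup.eq_of_le_of_card_ge ?_ ?_).symm
      · intro d hd
        refine ⟨hd.1, ?_⟩
        have hnorm : (((R : Subgroup G) ⊓ A).subgroupOf (R : Subgroup G)).Normal := by
          apply Subgroup.normal_of_index_eq_minFac_card
          have hidx' := Subgroup.card_mul_index (((R : Subgroup G) ⊓ A).subgroupOf (R : Subgroup G))
          rw [Nat.card_congr (Subgroup.subgroupOfEquivOfLe inf_le_left).toEquiv] at hidx'
          have h5i : (((R : Subgroup G) ⊓ A).subgroupOf (R : Subgroup G)).index = 5 :=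
            Nat.eq_of_mul_eq_mul_left Nat.card_pos (hidx'.trans (hidx.symm.trans (mul_comm _ _)))
          obtain ⟨k, hk⟩ := R.isPGroup'.exists_card_eq
          have hk0 : k ≠ 0 := by
            rintro rfl
            rw [pow_zero] at hk
            omega
          rw [h5i, hk, Nat.pow_minFac hk0, Nat.Prime.minFac_eq (by norm_num)]
        have := hnorm.conj_mem ⟨d, hd.1⟩ hd ⟨x⁻¹, inv_mem hx⟩
        rw [Subgroup.mem_subgroupOf] at this
        have h' : x⁻¹ * d * x ∈ (R : Subgroup G) ⊓ A := by simpa using this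
        rw [Sylow.coe_subgroup_smul]
        exact ⟨x⁻¹ * d * x, h'.2, by simp [mul_assoc]⟩
      · rw [hcardeq R A hRA, hcardeq R _ hne']
    refine le_trans ?_ (Finset.card_le_card hsub)
    rw [Set.toFinset_card, ← Nat.card_eq_fintype_card, horbA]
  have hinj : B.card ≤ I.card := by
    refine Finset.card_le_card_of_injOn (fun A : Sylow 5 G => (R : Subgroup G) ⊓ (A : Subgroup G)) ?_ ?_
    · intro A hA
      refine Finset.mem_image.2 ⟨A, Finset.mem_erase.2 ⟨?_, Finset.mem_univ _⟩, rfl⟩
      rintro rfl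
      exact hR (Finset.mem_filter.1 hA).2
    · intro A hA A' hA' he
      by_contra hne
      have hAR : R ≠ A := by rintro rfl; exact hR (Finset.mem_filter.1 hA).2
      have hDA : D ≤ (A : Subgroup G) ⊓ A' := le_inf (Finset.mem_filter.1 hA).2 (Finset.mem_filter.1 hA').2
      have hDeq : D = (A : Subgroup G) ⊓ A' :=
        Subgroup.eq_of_le_of_card_ge hDA (hcardeq A A' hne).le
      have he' : (R : Subgroup G) ⊓ A = (R : Subgroup G) ⊓ A' := he
      have hle : (R : Subgroup G) ⊓ A ≤ D := hDeq ▸ le_inf inf_le_right (he'.le.trans inf_le_right)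
      have := Subgroup.eq_of_le_of_card_ge hle (hcardeq R A hAR).ge
      exact hR (this ▸ inf_le_left)
  omega

/-- Affine normal form for elements of the point stabiliser. -/
theorem exists_coords (h21 : Nat.card (Sylow 5 G) = 21) (P : Sylow 5 G)
    (hP5 : Nat.card ↥(P : Subgroup G) = 5) :
    ∃ (e : Fin 4 × ZMod 5 ≃ {Q : Sylow 5 G // Q ≠ P}) (a : MulAction.stabilizer G P →* (ZMod 5)ˣ)
      (s : MulAction.stabilizer G P →* Equiv.Perm (Fin 4))
      (b : MulAction.stabilizer G P → Fin 4 → ZMod 5),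
      (∀ g ∈ (P : Subgroup G), ∀ (hg : g ∈ MulAction.stabilizer G P), s ⟨g, hg⟩ = 1) ∧
      (∀ g : MulAction.stabilizer G P, a g = 1 ↔
        (g : G) ∈ Subgroup.centralizer ((P : Subgroup G) : Set G)) ∧
      ∀ (g : MulAction.stabilizer G P) (i : Fin 4) (x : ZMod 5),
        (g : G) • (e (i, x)).1 = (e (s g i, a g * x + b g i)).1 := by
  classical
  let e0 : Multiplicative (ZMod 5) ≃* ↥(P : Subgroup G) :=
    mulEquivOfPrimeCardEq (by rw [Nat.card_congr Multiplicative.toAdd, Nat.card_zmod]) hP5
  let T : ZMod 5 → G := fun x => (e0 (Multiplicative.ofAdd x) : G)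
  have hTadd : ∀ x y, T (x + y) = T x * T y := by intro x y; simp [T, ofAdd_add]
  have hT0 : T 0 = 1 := by simp [T]
  have hTinj : Function.Injective T := by intro x y h; simpa [T, Subtype.coe_inj] using h
  have hTmem : ∀ x, T x ∈ (P : Subgroup G) := fun x => (e0 (Multiplicative.ofAdd x)).2
  have hTsur : ∀ g ∈ (P : Subgroup G), ∃ x, T x = g := fun g hg =>
    ⟨(e0.symm ⟨g, hg⟩).toAdd, by simp [T]⟩
  have hTfix : ∀ x, T x • P = P := fun x =>
    Sylow.smul_eq_iff_mem_normalizer.2 (Subgroup.le_normalizer (hTmem x))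
  -- free action on the other points
  have hfree : ∀ (Q : Sylow 5 G) x, Q ≠ P → T x • Q = Q → x = 0 := by
    intro Q x hQ hx
    by_contra h0
    have h1 : T x ∈ (P : Subgroup G) ⊓ Q := (mem_inf_iff_smul P Q _ (hTmem x)).1 hx
    have h2 := (inter_index_five h21 P Q hQ.symm).1
    have h3 : Nat.card ↥((P : Subgroup G) ⊓ Q) = 1 := by omega
    rw [Subgroup.card_eq_one] at h3
    rw [h3, Subgroup.mem_bot] at h1
    exact h0 (hTinj (h1.trans hT0.symm))
  let X := {Q : Sylow 5 G // Q ≠ P}
  have hTX : ∀ (x : ZMod 5) (Q : X), T x • Q.1 ≠ P := fun x Q h =>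
    Q.2 (MulAction.injective (T x) (h.trans (hTfix x).symm))
  let R : Setoid X := ⟨fun Q Q' => ∃ x, T x • Q.1 = Q'.1,
    ⟨fun Q => ⟨0, by rw [hT0, one_smul]⟩,
      fun {Q Q'} ⟨x, hx⟩ => ⟨-x, by rw [← hx, smul_smul, ← hTadd, neg_add_cancel, hT0, one_smul]⟩,
      fun {Q Q' Q''} ⟨x, hx⟩ ⟨y, hy⟩ => ⟨y + x, by rw [hTadd, mul_smul, hx, hy]⟩⟩⟩
  let f : Quotient R × ZMod 5 → X := fun yx => ⟨T yx.2 • (Quotient.out yx.1).1, hTX _ _⟩
  have hfbij : Function.Bijective f := by
    constructor
    · rintro ⟨y, x⟩ ⟨y', x'⟩ h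
      have h' : T x • (Quotient.out y).1 = T x' • (Quotient.out y').1 := congrArg Subtype.val h
      have hy : y = y' := by
        rw [← Quotient.out_eq y, ← Quotient.out_eq y']
        exact Quotient.sound ⟨-x' + x, by rw [hTadd, mul_smul, h', smul_smul, ← hTadd,
          neg_add_cancel, hT0, one_smul]⟩
      subst hy
      have := hfree _ (-x' + x) (Quotient.out y).2
        (by rw [hTadd, mul_smul, h', smul_smul, ← hTadd, neg_add_cancel, hT0, one_smul])
      rw [neg_add_eq_zero] at this
      rw [this]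
    · intro Q
      obtain ⟨x, hx⟩ := Quotient.mk_out (s := R) Q
      exact ⟨(⟦Q⟧, x), Subtype.ext hx⟩
  have : Finite (Quotient R) := Quotient.finite _
  have hcard4 : Nat.card (Quotient R) = 4 := by
    have h1 := Nat.card_eq_of_bijective f hfbij
    rw [Nat.card_prod, Nat.card_zmod] at h1
    have h2 : Nat.card X + 1 = 21 := by
      rw [← h21, ← Finite.card_option]
      exact Nat.card_congr (Equiv.optionSubtypeNe P)
    omega
  let e : Fin 4 × ZMod 5 ≃ X :=
    (Equiv.prodCongr (Finite.equivFinOfCardEq hcard4).symm (Equiv.refl _)).trans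
      (Equiv.ofBijective f hfbij)
  have he : ∀ i x y, (e (i, x + y)).1 = T x • (e (i, y)).1 := by
    intro i x y
    simp only [e, Equiv.trans_apply, Equiv.prodCongr_apply, Equiv.ofBijective_apply, Prod.map,
      Equiv.refl_apply, f, hTadd, mul_smul, id]
  -- the multiplier
  have hmem : ∀ g : MulAction.stabilizer G P, ∀ x, (g : G) * T x * (g : G)⁻¹ ∈ (P : Subgroup G) :=
    fun g x => (Subgroup.mem_normalizer_iff.1 (Sylow.smul_eq_iff_mem_normalizer.1
      (MulAction.mem_stabilizer_iff.1 g.2)) _).1 (hTmem x)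
  choose c hc using fun g x => hTsur _ (hmem g x)
  have hclin : ∀ g x, c g x = c g 1 * x := by
    intro g x
    refine addMonoidHom_eq_mul_of_prime_card (p := 5) (by simp) (AddMonoidHom.mk' (c g) ?_) x
    intro u v
    refine hTinj ?_
    rw [hTadd, hc, hc, hc, hTadd]; group
  let a0 : MulAction.stabilizer G P →* ZMod 5 :=
    { toFun := fun g => c g 1
      map_one' := hTinj (by rw [hc]; simp)
      map_mul' := fun g h => hTinj (by
        rw [← hclin g (c h 1), hc, hc, hc, Subgroup.coe_mul]; group) }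
  have hconj : ∀ (g : MulAction.stabilizer G P) x, (g : G) * T x = T (a0 g * x) * (g : G) := by
    intro g x
    change _ = T (c g 1 * x) * _
    rw [← hclin g x, hc]; group
  have hgX : ∀ (g : MulAction.stabilizer G P) (Q : X), (g : G) • Q.1 ≠ P := fun g Q h =>
    Q.2 (MulAction.injective (g : G) (h.trans (MulAction.mem_stabilizer_iff.1 g.2).symm))
  let π : MulAction.stabilizer G P → Fin 4 → Fin 4 × ZMod 5 :=
    fun g i => e.symm ⟨(g : G) • (e (i, 0)).1, hgX g _⟩
  have hπ : ∀ (g : MulAction.stabilizer G P) i x,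
      (g : G) • (e (i, x)).1 = (e ((π g i).1, a0 g * x + (π g i).2)).1 := by
    intro g i x
    rw [he, Prod.mk.eta, show π g i = e.symm ⟨(g : G) • (e (i, 0)).1, hgX g _⟩ from rfl,
      Equiv.apply_symm_apply, show e (i, x) = e (i, x + 0) by rw [add_zero], he, smul_smul,
      smul_smul, hconj]
  let s0 : MulAction.stabilizer G P → Fin 4 → Fin 4 := fun g i => (π g i).1
  have hs0mul : ∀ g h i, s0 (g * h) i = s0 g (s0 h i) := by
    intro g h i
    have h1 := hπ (g * h) i 0
    rw [Subgroup.coe_mul, mul_smul, hπ h i 0, hπ g] at h1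
    exact (Prod.mk.inj (e.injective (Subtype.ext h1))).1.symm
  have hs0one : ∀ i, s0 1 i = i := by
    intro i
    have h1 := hπ 1 i 0
    rw [OneMemClass.coe_one, one_smul] at h1
    exact (Prod.mk.inj (e.injective (Subtype.ext h1))).1.symm
  let s : MulAction.stabilizer G P →* Equiv.Perm (Fin 4) :=
    { toFun := fun g => ⟨s0 g, s0 g⁻¹, fun i => by rw [← hs0mul, inv_mul_cancel, hs0one],
        fun i => by rw [← hs0mul, mul_inv_cancel, hs0one]⟩
      map_one' := Equiv.ext hs0one
      map_mul' := fun g h => Equiv.ext (hs0mul g h) }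
  refine ⟨e, a0.toHomUnits, s, fun g i => (π g i).2, ?_, ?_, hπ⟩
  · intro g hgP hg
    obtain ⟨x, rfl⟩ := hTsur g hgP
    refine Equiv.ext fun i => ?_
    change s0 _ i = i
    have h1 := hπ ⟨T x, hg⟩ i 0
    rw [← he] at h1
    exact (Prod.mk.inj (e.injective (Subtype.ext h1))).1.symm
  · intro g
    rw [Units.ext_iff, MonoidHom.coe_toHomUnits, Units.val_one, Subgroup.mem_centralizer_iff]
    constructor
    · intro h1 y hy
      obtain ⟨x, rfl⟩ := hTsur y hy
      rw [hconj g x, h1, one_mul]
    · intro h1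
      have h2 := hconj g 1
      rw [mul_one, ← h1 _ (hTmem 1)] at h2
      exact (hTinj (mul_right_cancel h2)).symm

theorem sign_affine (σ : Equiv.Perm (Fin 4)) (a : (ZMod 5)ˣ) (b : Fin 4 → ZMod 5)
    (π : Equiv.Perm (Fin 4 × ZMod 5)) (hπ : ∀ i x, π (i, x) = (σ i, a * x + b i)) :
    Equiv.Perm.sign π = Equiv.Perm.sign σ := by
  have hdec : π = Equiv.prodCongrLeft (fun _ : ZMod 5 => σ) *
      Equiv.prodCongrRight (fun i => Equiv.addRight (b i) * a.mulLeft) := by
    refine Equiv.ext fun ⟨i, x⟩ => ?_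
    simp [hπ, Equiv.prodCongrLeft, Equiv.prodCongrRight]
  have h5 : ∀ u : ℤˣ, u ^ 5 = u := by
    intro u; rcases Int.units_eq_one_or u with rfl | rfl <;> decide
  have hshift : ∀ c : ZMod 5, Equiv.Perm.sign (Equiv.addRight c) = 1 := by
    intro c
    have : (Equiv.addRight c) ^ 5 = 1 := by
      refine Equiv.ext fun x => ?_
      simp only [Equiv.Perm.coe_pow, Equiv.coe_addRight, add_right_iterate, Equiv.Perm.one_apply]
      rw [nsmul_eq_mul, show ((5 : ℕ) : ZMod 5) = 0 from ZMod.natCast_self 5, zero_mul, add_zero]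
    rw [← h5 (Equiv.Perm.sign _), ← map_pow, this, map_one]
  rw [hdec, map_mul, Equiv.Perm.sign_prodCongrLeft, Equiv.Perm.sign_prodCongrRight,
    Finset.prod_const, Finset.card_univ, ZMod.card, h5]
  simp only [map_mul, hshift, one_mul, Finset.prod_const, Finset.card_univ, Fintype.card_fin]
  rcases Int.units_eq_one_or (Equiv.Perm.sign a.mulLeft) with h | h <;> rw [h] <;> norm_num

theorem even_two_perm : ∀ σ τ : Equiv.Perm (Fin 4), Equiv.Perm.sign σ = 1 → σ ^ 4 = 1 →
    Equiv.Perm.sign τ = 1 → τ ^ 4 = 1 → (σ = 1 ∨ ∀ i, σ i ≠ i) ∧ σ * τ = τ * σ := by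
  decide +kernel

theorem perm_four_seven : ∀ σ : Equiv.Perm (Fin 4), σ ^ 7 = 1 → σ = 1 := by decide +kernel

theorem perm_four_two_pow : ∀ σ : Equiv.Perm (Fin 4), σ ^ 8 = 1 → σ ^ 4 = 1 := by decide +kernel

theorem unit_five_pow : ∀ a : (ZMod 5)ˣ, a ^ 4 = 1 := by decide

theorem unit_five_seven : ∀ a : (ZMod 5)ˣ, a ^ 7 = 1 → a = 1 := by decide

theorem unit_five_odd (a : (ZMod 5)ˣ) {n : ℕ} (hn : ¬ 2 ∣ n) (h : a ^ n = 1) : a = 1 := by
  have hco : Nat.Coprime n 4 := by
    rw [show (4 : ℕ) = 2 ^ 2 from rfl]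
    exact Nat.Coprime.pow_right 2 ((Nat.prime_two.coprime_iff_not_dvd.2 hn).symm)
  have := pow_gcd_eq_one.2 ⟨h, unit_five_pow a⟩
  rwa [hco, pow_one] at this

theorem kernel_five (h21 : Nat.card (Sylow 5 G) = 21)
    (hf : ∀ x : G, (∀ Q : Sylow 5 G, x • Q = Q) → x = 1) (P : Sylow 5 G)
    (e : Fin 4 × ZMod 5 ≃ {Q : Sylow 5 G // Q ≠ P}) (a : MulAction.stabilizer G P →* (ZMod 5)ˣ)
    (s : MulAction.stabilizer G P →* Equiv.Perm (Fin 4))
    (b : MulAction.stabilizer G P → Fin 4 → ZMod 5)
    (hact : ∀ (g : MulAction.stabilizer G P) (i : Fin 4) (x : ZMod 5),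
        (g : G) • (e (i, x)).1 = (e (s g i, a g * x + b g i)).1)
    (g : MulAction.stabilizer G P) (ha : a g = 1) (hs : s g = 1) : g ^ 5 = 1 := by
  have hn : ∀ (n : ℕ) i x,
      ((g ^ n : MulAction.stabilizer G P) : G) • (e (i, x)).1 = (e (i, x + n • b g i)).1 := by
    intro n
    induction n with
    | zero => intro i x; simp
    | succ n ih =>
      intro i x
      rw [pow_succ', Subgroup.coe_mul, mul_smul, ih, hact, ha, hs, Equiv.Perm.one_apply,
        Units.val_one, one_mul, succ_nsmul, add_assoc]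
  refine Subtype.ext (hf _ fun Q => ?_)
  by_cases hQ : Q = P
  · subst hQ; exact MulAction.mem_stabilizer_iff.1 (g ^ 5).2
  · obtain ⟨⟨i, x⟩, hix⟩ := e.surjective ⟨Q, hQ⟩
    rw [show Q = (e (i, x)).1 by rw [hix], hn]
    rw [nsmul_eq_mul, show ((5 : ℕ) : ZMod 5) = 0 from ZMod.natCast_self 5, zero_mul, add_zero]

/-- No finite group has exactly twenty-one Sylow 5-subgroups. -/
theorem card_sylow_five_ne : ∀ (n : ℕ) (G : Type*) [Group G] [Finite G],
    Nat.card G = n → Nat.card (Sylow 5 G) ≠ 21 := by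
  intro n
  induction n using Nat.strong_induction_on with
  | _ n ih =>
  intro G _ _ hGn h21
  classical
  subst hGn
  -- proper normal subgroups miss the Sylow subgroups
  have hnormal : ∀ (M : Subgroup G), M.Normal → ∀ P : Sylow 5 G, (P : Subgroup G) ≤ M → M = ⊤ := by
    intro M hM P hPM
    by_contra hne
    have hlt : Nat.card ↥M < Nat.card G := by
      refine lt_of_le_of_ne (Subgroup.card_le_card_group M) fun he => hne ?_
      exact Subgroup.eq_top_of_card_eq M he
    exact ih _ hlt ↥M rfl ((card_sylow_normal_subgroup P hPM).trans h21)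
  -- faithfulness
  have hf : ∀ x : G, (∀ Q : Sylow 5 G, x • Q = Q) → x = 1 := by
    let K := (MulAction.toPermHom G (Sylow 5 G)).ker
    suffices hK : K = ⊥ by
      intro x hx
      have : x ∈ K := MonoidHom.mem_ker.2 (Equiv.ext hx)
      rwa [hK, Subgroup.mem_bot] at this
    by_contra hne
    have hker : ∀ P : Sylow 5 G, (QuotientGroup.mk' K).ker ≤
        Subgroup.normalizer ((P : Subgroup G) : Set G) := by
      intro P x hx
      rw [QuotientGroup.ker_mk'] at hx
      exact Sylow.smul_eq_iff_mem_normalizer.1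
        (congrArg (fun q => q P) (MonoidHom.mem_ker.1 hx))
    have hlt : Nat.card (G ⧸ K) < Nat.card G := by
      rw [← Subgroup.index_eq_card, ← Subgroup.card_mul_index K]
      have h1 : 1 < Nat.card ↥K := Subgroup.one_lt_card_iff_ne_bot _ |>.2 hne
      have h2 : 0 < K.index := Nat.pos_of_ne_zero Subgroup.index_ne_zero_of_finite
      exact lt_mul_left h2 h1
    exact ih _ hlt (G ⧸ K) rfl ((card_sylow_quotient (QuotientGroup.mk' K)
      (QuotientGroup.mk'_surjective K) hker).trans h21)
  let P : Sylow 5 G := default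
  have hP5 := card_eq_five h21 hf P
  obtain ⟨e, a, s, b, hsP, haC, hact⟩ := exists_coords h21 P hP5
  let N := MulAction.stabilizer G P
  have hindex : N.index = 21 := by
    rw [MulAction.index_stabilizer_of_transitive, h21]
  have := Fintype.ofFinite (Sylow 5 G)
  -- permutations are even
  have hsign : ∀ g : G, Equiv.Perm.sign (MulAction.toPermHom G (Sylow 5 G) g) = 1 := by
    intro g
    let ψ : G →* ℤˣ := Equiv.Perm.sign.comp (MulAction.toPermHom G (Sylow 5 G))
    have hk : ψ.ker = ⊤ := by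
      refine hnormal _ inferInstance P fun x hx => ?_
      have h5 : x ^ 5 = 1 := by
        have : (⟨x, hx⟩ : (P : Subgroup G)) ^ Nat.card ↥(P : Subgroup G) = 1 := pow_card_eq_one'
        rw [hP5] at this; exact congrArg Subtype.val this
      rw [MonoidHom.mem_ker]
      have := map_pow ψ x 5
      rw [h5, map_one] at this
      rcases Int.units_eq_one_or (ψ x) with h | h
      · exact h
      · rw [h] at this; exact absurd this (by decide)
    have : ψ g = 1 := by rw [← MonoidHom.mem_ker, hk]; trivial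
    exact this
  have heven : ∀ g : N, Equiv.Perm.sign (s g) = 1 := by
    intro g
    let σg : Equiv.Perm (Sylow 5 G) := MulAction.toPermHom G (Sylow 5 G) g.1
    have hfix : ∀ Q, (σg Q ≠ P) ↔ Q ≠ P := by
      intro Q
      have hgP : σg P = P := MulAction.mem_stabilizer_iff.1 g.2
      constructor
      · intro h e'; subst e'; exact h hgP
      · intro h e'; exact h (σg.injective (e'.trans hgP.symm))
    have hsupp : ∀ Q, σg Q ≠ Q → Q ≠ P := fun Q hQ e' => hQ (by
      rw [e']; exact MulAction.mem_stabilizer_iff.1 g.2)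
    have h1 : Equiv.Perm.sign (σg.subtypePerm hfix) = Equiv.Perm.sign σg :=
      Equiv.Perm.sign_subtypePerm σg hfix hsupp
    rw [hsign] at h1
    rw [← Equiv.Perm.sign_permCongr e.symm] at h1
    rwa [sign_affine (s g) (a g) (b g) _ (fun i x => ?_)] at h1
    rw [Equiv.permCongr_apply, Equiv.symm_symm, Equiv.symm_apply_eq]
    exact Subtype.ext (hact g i x)
  -- a Sylow 2-subgroup of the point stabiliser
  have : Fact (Nat.Prime 2) := ⟨Nat.prime_two⟩
  let S0 : Sylow 2 N := default
  have hNG : Nat.card ↥N * 21 = Nat.card G := hindex ▸ Subgroup.card_mul_index N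
  have hScard : Nat.card ↥((S0 : Subgroup N).map N.subtype) = 2 ^ (Nat.card G).factorization 2 := by
    rw [Subgroup.card_map_of_injective N.subtype_injective, S0.card_eq_multiplicity, ← hNG,
      Nat.factorization_mul Nat.card_pos.ne' (by norm_num), Finsupp.add_apply,
      Nat.factorization_eq_zero_of_not_dvd (show ¬ 2 ∣ 21 by norm_num), add_zero]
  let S : Sylow 2 G := Sylow.ofCard _ hScard
  have hS : (S : Subgroup G) = (S0 : Subgroup N).map N.subtype := Sylow.coe_ofCard _ hScard
  have hSN : (S : Subgroup G) ≤ N := hS ▸ Subgroup.map_subtype_le _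
  let ι := Subgroup.inclusion hSN
  have hpow : ∀ x : (S : Subgroup G), ∃ k, x ^ 2 ^ k = 1 := fun x => by
    obtain ⟨k, hk⟩ := S.isPGroup' x; exact ⟨k, hk⟩
  have hker : ∀ x : (S : Subgroup G), a (ι x) = 1 → s (ι x) = 1 → x = 1 := by
    intro x ha hs
    have h5 := kernel_five h21 hf P e a s b hact _ ha hs
    obtain ⟨k, hk⟩ := hpow x
    have h5' : x ^ 5 = 1 := Subgroup.inclusion_injective hSN (by rw [map_pow, map_one]; exact h5)
    have := pow_gcd_eq_one.2 ⟨h5', hk⟩
    rwa [Nat.Coprime.pow_right k (show Nat.Coprime 5 2 by norm_num), pow_one] at this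
  have hs4 : ∀ x : (S : Subgroup G), s (ι x) ^ 4 = 1 := by
    intro x
    obtain ⟨k, hk⟩ := hpow x
    have h1 : s (ι x) ^ 2 ^ k = 1 := by rw [← map_pow, ← map_pow, hk, map_one, map_one]
    refine perm_four_two_pow _ ?_
    have h24 : s (ι x) ^ 24 = 1 := by
      have h2 : s (ι x) ^ Nat.card (Equiv.Perm (Fin 4)) = 1 := pow_card_eq_one'
      rwa [Nat.card_eq_fintype_card, Fintype.card_perm, Fintype.card_fin] at h2
    have h3 := pow_gcd_eq_one.2 ⟨h24, h1⟩
    have hdvd : Nat.gcd 24 (2 ^ k) ∣ 8 := by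
      obtain ⟨j, -, hj⟩ := (Nat.dvd_prime_pow Nat.prime_two).1 (Nat.gcd_dvd_right 24 (2 ^ k))
      have h24' := hj ▸ Nat.gcd_dvd_left 24 (2 ^ k)
      rw [hj]
      rw [show (8 : ℕ) = 2 ^ 3 from rfl]
      refine Nat.pow_dvd_pow 2 ?_
      by_contra hlt
      have : 2 ^ 4 ∣ 24 := (Nat.pow_dvd_pow 2 (show 4 ≤ j by omega)).trans h24'
      norm_num at this
    obtain ⟨c, hc⟩ := hdvd
    rw [hc, pow_mul, h3, one_pow]
  have hdich : ∀ x : (S : Subgroup G), s (ι x) = 1 ∨ ∀ i, s (ι x) i ≠ i := fun x =>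
    (even_two_perm _ _ (heven _) (hs4 x) (heven _) (hs4 x)).1
  have hcomm : ∀ x y : (S : Subgroup G), x * y = y * x := by
    intro x y
    rw [← mul_inv_eq_one]
    refine hker _ ?_ ?_
    · simp only [map_mul, map_inv]; rw [mul_inv_eq_one, mul_comm]
    · simp only [map_mul, map_inv]
      rw [(even_two_perm _ _ (heven _) (hs4 x) (heven _) (hs4 y)).2, mul_inv_cancel]
  have : IsMulCommutative ↥(S : Subgroup G) := ⟨⟨hcomm⟩⟩
  -- invariance of the multiplier under fusion
  have hinv : ∀ (x y : (S : Subgroup G)) (n : G), n ∈ Subgroup.normalizer ((S : Subgroup G) : Set G) →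
      n⁻¹ * (x : G) * n = y → a (ι y) = a (ι x) := by
    intro x y n hn hxy
    by_cases hA : ∃ t : (S : Subgroup G), ∀ i, s (ι t) i ≠ i
    · obtain ⟨t, ht⟩ := hA
      have hnN : n ∈ N := by
        rw [MulAction.mem_stabilizer_iff]
        by_contra hne
        obtain ⟨⟨i, z⟩, hiz⟩ := e.surjective ⟨n • P, hne⟩
        have hmem : n⁻¹ * (t : G) * n ∈ (S : Subgroup G) := by
          have := (Subgroup.mem_normalizer_iff.1 (inv_mem hn) (t : G)).1 t.2
          simpa using this
        have h1 : (t : G) • n • P = n • P := by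
          have h2 : (n⁻¹ * (t : G) * n) • P = P :=
            MulAction.mem_stabilizer_iff.1 (hSN hmem)
          rw [mul_assoc, mul_smul, inv_smul_eq_iff, mul_smul] at h2
          exact h2
        rw [show n • P = (e (i, z)).1 by rw [hiz]] at h1
        have h3 := hact (ι t) i z
        rw [show ((ι t : N) : G) = (t : G) from rfl, h1] at h3
        exact ht i (Prod.mk.inj (e.injective (Subtype.ext h3))).1.symm
      have : ι y = ⟨n, hnN⟩⁻¹ * ι x * ⟨n, hnN⟩ := Subtype.ext hxy.symm
      rw [this, map_mul, map_mul, map_inv, mul_comm, ← mul_assoc, mul_inv_cancel, one_mul]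
    · push Not at hA
      have hs1 : ∀ t : (S : Subgroup G), s (ι t) = 1 := fun t => by
        rcases hdich t with h | h
        · exact h
        · obtain ⟨i, hi⟩ := hA t; exact absurd hi (h i)
      have hinj : Function.Injective (a.comp ι) := by
        rw [← MonoidHom.ker_eq_bot_iff, Subgroup.eq_bot_iff_forall]
        exact fun t ht => hker t ht (hs1 t)
      have hcyc : IsCyclic ↥(S : Subgroup G) :=
        isCyclic_of_injective_ringHom ((Units.coeHom (ZMod 5)).comp (a.comp ι))
          (Units.val_injective.comp hinj)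
      by_cases h2 : 2 ∣ Nat.card G
      · have hmin : (Nat.card G).minFac = 2 := (Nat.minFac_eq_two_iff _).2 h2
        have hc := IsCyclic.normalizer_le_centralizer hmin hcyc hn
        have : x = y := Subtype.ext (by
          rw [← hxy, mul_assoc, Subgroup.mem_centralizer_iff.1 hc (x : G) x.2, inv_mul_cancel_left])
        rw [this]
      · have hone : ∀ z : (S : Subgroup G), z = 1 := by
          intro z
          have := S.card_eq_multiplicity
          rw [Nat.factorization_eq_zero_of_not_dvd h2, pow_zero, Nat.card_eq_one_iff_unique] at this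
          exact this.1.elim _ _
        rw [hone x, hone y]
  -- transfer
  have haS : ∀ x : (S : Subgroup G), a (ι x) = 1 := by
    intro x
    have htr := transfer_eq_pow_index (a.comp ι) (fun u v g huv => by
      obtain ⟨n, hn, hnu⟩ := S.conj_eq_normalizer_conj_of_mem (u : G) g u.2 (by rw [huv]; exact v.2)
      exact hinv u v n hn (by rw [← hnu, huv])) x
    have hk : (MonoidHom.transfer (a.comp ι)).ker = ⊤ := by
      refine hnormal _ inferInstance P fun z hz => ?_
      rw [MonoidHom.mem_ker]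
      refine unit_five_odd _ (n := 5) (by norm_num) ?_
      rw [← map_pow]
      have : (⟨z, hz⟩ : (P : Subgroup G)) ^ Nat.card ↥(P : Subgroup G) = 1 := pow_card_eq_one'
      rw [hP5] at this
      rw [show z ^ 5 = 1 from congrArg Subtype.val this, map_one]
    have h1 : MonoidHom.transfer (a.comp ι) (x : G) = 1 := by
      rw [← MonoidHom.mem_ker, hk]; trivial
    rw [h1] at htr
    exact unit_five_odd _ S.not_dvd_index htr.symm
  -- the stabiliser centralises `P`
  have haN : ∀ g : N, a g = 1 := by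
    have hle : (S0 : Subgroup N) ≤ a.ker := by
      intro z hz
      exact haS ⟨(z : G), hS ▸ Subgroup.mem_map_of_mem _ hz⟩
    have hodd : ¬ 2 ∣ a.ker.index := fun h =>
      S0.not_dvd_index (h.trans (Subgroup.index_dvd_of_le hle))
    intro g
    refine unit_five_odd _ hodd ?_
    rw [← map_pow, ← MonoidHom.mem_ker]
    exact Subgroup.pow_index_mem _ g
  have hNC : Subgroup.normalizer ((P : Subgroup G) : Set G) ≤
      Subgroup.centralizer ((P : Subgroup G) : Set G) := fun g hg =>
    (haC ⟨g, Sylow.smul_eq_iff_mem_normalizer.2 hg⟩).1 (haN _)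
  have hcompl := MonoidHom.ker_transferSylow_isComplement' P hNC
  set M := (MonoidHom.transferSylow P hNC).ker with hM
  have hMcard := hcompl.card_mul_card
  rw [hP5] at hMcard
  have h5M : ¬ 5 ∣ Nat.card ↥M := hM ▸ MonoidHom.not_dvd_card_ker_transferSylow P hNC
  -- the stabiliser has no elements of order 7
  have h7N : ¬ 7 ∣ Nat.card ↥N := by
    intro h7
    have : Fact (Nat.Prime 7) := ⟨by norm_num⟩
    obtain ⟨g, hg⟩ := exists_prime_orderOf_dvd_card' 7 h7
    have h7' : g ^ 7 = 1 := hg ▸ pow_orderOf_eq_one g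
    have h5' := kernel_five h21 hf P e a s b hact g (haN g)
      (perm_four_seven _ (by rw [← map_pow, h7', map_one]))
    have := orderOf_dvd_of_pow_eq_one h5'
    rw [hg] at this; norm_num at this
  have : Fact (Nat.Prime 7) := ⟨by norm_num⟩
  have h7G : Nat.card G = 7 * (3 * Nat.card ↥N) := by rw [← hNG]; ring
  have h7G' : ¬ 7 ∣ 3 * Nat.card ↥N := by
    rw [(show Nat.Prime 7 by norm_num).dvd_mul]; rintro (h | h)
    · norm_num at h
    · exact h7N h
  have hn7 : ¬ 5 ∣ Nat.card (Sylow 7 G) := by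
    intro h5
    let Q : Sylow 7 G := default
    have hQM : (Q : Subgroup G) ≤ M := by
      intro z hz
      rw [hM, MonoidHom.mem_ker]
      have h7z : (⟨z, hz⟩ : (Q : Subgroup G)) ^ 7 = 1 := by
        have : (⟨z, hz⟩ : (Q : Subgroup G)) ^ Nat.card ↥(Q : Subgroup G) = 1 := pow_card_eq_one'
        rwa [card_sylow_eq_prime h7G h7G'] at this
      have h1 : MonoidHom.transferSylow P hNC z ^ 7 = 1 := by
        rw [← map_pow, show z ^ 7 = 1 from congrArg Subtype.val h7z, map_one]
      have h2 : MonoidHom.transferSylow P hNC z ^ Nat.card ↥(P : Subgroup G) = 1 := pow_card_eq_one'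
      rw [hP5] at h2
      have := pow_gcd_eq_one.2 ⟨h1, h2⟩
      rwa [show Nat.gcd 7 5 = 1 from rfl, pow_one] at this
    rw [← card_sylow_normal_subgroup Q hQM] at h5
    exact h5M (h5.trans ((default : Sylow 7 M).card_dvd_index.trans (Subgroup.index_dvd_card _)))
  obtain ⟨Q, hQ⟩ := IsPGroup.nonempty_fixed_point_of_prime_not_dvd_card P.isPGroup' (Sylow 7 G) hn7
  have hQcard := card_sylow_eq_prime h7G h7G' Q
  obtain ⟨q, hq, hq1⟩ := (Subgroup.bot_or_exists_ne_one (Q : Subgroup G)).resolve_left (fun h => by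
    rw [h, Subgroup.card_bot] at hQcard; norm_num at hQcard)
  have hqN : q ∈ N := by
    rw [MulAction.mem_stabilizer_iff, Sylow.smul_eq_iff_mem_normalizer]
    refine Subgroup.centralizer_le_normalizer _ ?_
    rw [Subgroup.mem_centralizer_iff]
    intro y hy
    have hyN : y ∈ Subgroup.normalizer ((Q : Subgroup G) : Set G) :=
      Sylow.smul_eq_iff_mem_normalizer.1 (hQ ⟨y, hy⟩)
    have hy5 : y ^ 5 = 1 := by
      have : (⟨y, hy⟩ : (P : Subgroup G)) ^ Nat.card ↥(P : Subgroup G) = 1 := pow_card_eq_one'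
      rw [hP5] at this; exact congrArg Subtype.val this
    exact (Subgroup.mem_centralizer_iff.1
      (mem_centralizer_of_pow_eq_one (by norm_num) hQcard hyN hy5 (by norm_num)) q hq).symm
  have h7q : orderOf q = 7 := by
    have : (⟨q, hq⟩ : (Q : Subgroup G)) ^ Nat.card ↥(Q : Subgroup G) = 1 := pow_card_eq_one'
    rw [hQcard] at this
    exact orderOf_eq_prime (congrArg Subtype.val this) hq1
  refine h7N ?_
  have := orderOf_dvd_natCard (⟨q, hqN⟩ : N)
  rwa [Subgroup.orderOf_mk, h7q] at this

end Cfsg.Agent.H31.TwentyOne
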