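import Mathlib
import Cfsg.Agent.H31.SylowPrime
import Cfsg.Agent.H31.CommutingPerm
import Cfsg.Agent.H30.Basics

/-!
An element whose centraliser has two Sylow `p`-subgroups.
-/

set_option autoImplicit false

namespace Cfsg.Agent.H31

open scoped Pointwise

variable {G : Type*} [Group G] [Finite G]

/-- If the centraliser of a Sylow `p`-subgroup of prime order has order divisible by four, its
normalizer has 2-part eight and the group order is divisible by sixteen, then some element
centralises two Sylow `p`-subgroups and a large piece of the centraliser of one of them. -/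
theorem exists_centralizer_two_sylow {p a m l : ℕ} [hp : Fact p.Prime] (hp2 : p ≠ 2) (P : Sylow p G)
    (hP : Nat.card ↥(P : Subgroup G) = p)
    (hC : 4 ∣ Nat.card ↥(Subgroup.centralizer ((P : Subgroup G) : Set G)))
    (hN : Nat.card ↥(Subgroup.normalizer ((P : Subgroup G) : Set G)) = 2 ^ 3 * m) (hm : ¬ 2 ∣ m)
    (hG : Nat.card G = 2 ^ a * l) (hl : ¬ 2 ∣ l) (ha : 3 < a) :
    ∃ (y : G) (Q : Sylow p G), y ≠ 1 ∧ Q ≠ P ∧
      (P : Subgroup G) ≤ Subgroup.centralizer ({y} : Set G) ∧
      (Q : Subgroup G) ≤ Subgroup.centralizer ({y} : Set G) ∧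
      4 * p ∣ Nat.card ↥(Subgroup.centralizer ({y} : Set G) ⊓
        Subgroup.centralizer ((P : Subgroup G) : Set G)) := by
  classical
  have : Fact (Nat.Prime 2) := ⟨Nat.prime_two⟩
  set C := Subgroup.centralizer ((P : Subgroup G) : Set G) with hCdef
  set N := Subgroup.normalizer ((P : Subgroup G) : Set G) with hNdef
  let T0 : Sylow 2 C := default
  set T := (T0 : Subgroup C).map C.subtype with hT
  have hT4 : 4 ∣ Nat.card ↥T := by
    rw [hT, Subgroup.card_map_of_injective C.subtype_injective]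
    exact T0.pow_dvd_card_of_pow_dvd_card (n := 2) hC
  have hTC : T ≤ C := Subgroup.map_subtype_le _
  have hTN : T ≤ N := hTC.trans (Subgroup.centralizer_le_normalizer _)
  have hTp : IsPGroup 2 ↥T := T0.isPGroup'.map _
  obtain ⟨T1, hT1⟩ := (hTp.of_equiv (Subgroup.subgroupOfEquivOfLe hTN).symm :
    IsPGroup 2 ↥(T.subgroupOf N)).exists_le_sylow
  set T' := (T1 : Subgroup N).map N.subtype with hT'
  have hT'card : Nat.card ↥T' = 8 := by
    rw [hT', Subgroup.card_map_of_injective N.subtype_injective]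
    simpa using Cfsg.Agent.H30.card_sylow_subgroup (a := 3) (m := m) T1 hN hm
  have hTT' : T ≤ T' := fun x hx => ⟨⟨x, hTN hx⟩, hT1 hx, rfl⟩
  obtain ⟨S, hS⟩ := (T1.isPGroup'.map N.subtype).exists_le_sylow
  rw [← hT'] at hS
  have hScard : Nat.card ↥(S : Subgroup G) = 2 ^ a :=
    Cfsg.Agent.H30.card_sylow_subgroup (a := a) (m := l) S hG hl
  obtain ⟨s, hsS, hsT', hsnorm⟩ :
      ∃ s ∈ (S : Subgroup G), s ∉ T' ∧ s ∈ Subgroup.normalizer (T' : Set G) := by
    have : Group.IsNilpotent ↥(S : Subgroup G) := S.isPGroup'.isNilpotent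
    have hlt : T'.subgroupOf (S : Subgroup G) < ⊤ := by
      rw [lt_top_iff_ne_top, Ne, Subgroup.subgroupOf_eq_top]
      intro hle
      have h1 := Nat.le_of_dvd Nat.card_pos (Subgroup.card_dvd_of_le hle)
      rw [hScard, hT'card] at h1
      have h2 : 2 ^ 3 < 2 ^ a := Nat.pow_lt_pow_right (by norm_num) ha
      omega
    obtain ⟨s, hs1, hs2⟩ := SetLike.exists_of_lt (Group.normalizerCondition_of_isNilpotent _ hlt)
    refine ⟨s, s.2, fun h' => hs2 h', ?_⟩
    rw [Subgroup.mem_normalizer_iff]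
    intro x
    constructor
    · intro hx
      exact (Subgroup.mem_normalizer_iff.1 hs1 ⟨x, hS hx⟩).1 hx
    · intro hx
      have hxS : x ∈ (S : Subgroup G) := by
        have := Subgroup.mul_mem _ (Subgroup.mul_mem _ (inv_mem s.2) (hS hx)) s.2
        simpa [mul_assoc] using this
      exact (Subgroup.mem_normalizer_iff.1 hs1 ⟨x, hxS⟩).2 hx
  have hsN : s ∉ N := by
    intro hsN
    obtain ⟨j, hj⟩ := IsPGroup.iff_orderOf.1 S.isPGroup' ⟨s, hsS⟩
    rw [Subgroup.orderOf_mk] at hj
    have hmem : (⟨s, hsN⟩ : N) ∈ Subgroup.normalizer ((T1 : Subgroup N) : Set N) := by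
      rw [Subgroup.mem_normalizer_iff]
      intro x
      have hiff : ∀ z : N, z ∈ (T1 : Subgroup N) ↔ (z : G) ∈ T' := by
        intro z
        rw [hT', Subgroup.mem_map]
        exact ⟨fun hz => ⟨z, hz, rfl⟩, fun ⟨w, hw, hwz⟩ => N.subtype_injective hwz ▸ hw⟩
      rw [hiff, hiff]
      exact Subgroup.mem_normalizer_iff.1 hsnorm x.1
    exact hsT' ⟨_, mem_sylow_of_mem_normalizer T1 hmem (k := j) (by rw [Subgroup.orderOf_mk, hj]), rfl⟩
  set Ts := T.map (MulAut.conj s).toMonoidHom with hTs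
  have hTsle : Ts ≤ T' := by
    rintro _ ⟨x, hx, rfl⟩
    exact (Subgroup.mem_normalizer_iff.1 hsnorm x).1 (hTT' hx)
  have hTscard : Nat.card ↥Ts = Nat.card ↥T :=
    Subgroup.card_map_of_injective (MulAut.conj s).injective
  have hTd : Nat.card ↥T = 4 ∨ Nat.card ↥T = 8 := by
    have h1 := Subgroup.card_dvd_of_le hTT'
    rw [hT'card] at h1
    have := Nat.le_of_dvd (by norm_num) h1
    obtain ⟨q, hq⟩ := hT4
    have : 0 < Nat.card ↥T := Nat.card_pos
    omega
  obtain ⟨y, hyT, hyTs, hy1, hycomm⟩ :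
      ∃ y, y ∈ T ∧ y ∈ Ts ∧ y ≠ 1 ∧ ∀ x ∈ T, x * y = y * x := by
    rcases hTd with h4 | h8
    · have hne : T ⊓ Ts ≠ ⊥ := by
        intro hbot
        have hinj := Subgroup.mul_injective_of_disjoint (disjoint_iff.2 hbot)
        have := Nat.card_le_card_of_injective
          (fun g : T × Ts => (⟨g.1.1 * g.2.1, T'.mul_mem (hTT' g.1.2) (hTsle g.2.2)⟩ : T'))
          (fun a b e' => hinj (congrArg Subtype.val e'))
        rw [Nat.card_prod, hTscard, h4, hT'card] at this
        norm_num at this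
      obtain ⟨y, hy, hy1⟩ := (Subgroup.bot_or_exists_ne_one _).resolve_left hne
      refine ⟨y, hy.1, hy.2, hy1, fun x hx => ?_⟩
      have hc := IsPGroup.isMulCommutative_of_card_eq_prime_sq (p := 2) (G := ↥T) (by rw [h4]; rfl)
      exact congrArg Subtype.val (hc.is_comm.comm ⟨x, hx⟩ ⟨y, hy.1⟩)
    · have hTeq : T = T' := Subgroup.eq_of_le_of_card_ge hTT' (by rw [h8, hT'card])
      have hTseq : Ts = T' := Subgroup.eq_of_le_of_card_ge hTsle (by rw [hTscard, h8, hT'card])
      have : Nontrivial ↥T := Finite.one_lt_card_iff_nontrivial.1 (by rw [h8]; norm_num)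
      obtain ⟨z, hz, hz1⟩ := (Subgroup.bot_or_exists_ne_one (Subgroup.center ↥T)).resolve_left
        hTp.bot_lt_center.ne'
      refine ⟨z, z.2, by rw [hTseq, ← hTeq]; exact z.2, fun e' => hz1 (Subtype.ext e'), fun x hx => ?_⟩
      exact congrArg Subtype.val (Subgroup.mem_center_iff.1 hz ⟨x, hx⟩)
  have hPH : (P : Subgroup G) ≤ Subgroup.centralizer ({y} : Set G) := by
    intro u hu
    rw [Subgroup.mem_centralizer_singleton_iff]
    exact Subgroup.mem_centralizer_iff.1 (hTC hyT) u hu
  refine ⟨y, s • P, hy1, fun e' => hsN (Sylow.smul_eq_iff_mem_normalizer.1 e'), hPH, ?_, ?_⟩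
  · rw [Sylow.coe_subgroup_smul]
    rintro _ ⟨u, hu, rfl⟩
    obtain ⟨t, ht, rfl⟩ := hyTs
    rw [Subgroup.mem_centralizer_singleton_iff]
    change s * u * s⁻¹ * (s * t * s⁻¹) = s * t * s⁻¹ * (s * u * s⁻¹)
    have h1 : u * t = t * u := Subgroup.mem_centralizer_iff.1 (hTC ht) u hu
    calc s * u * s⁻¹ * (s * t * s⁻¹) = s * (u * t) * s⁻¹ := by group
      _ = s * (t * u) * s⁻¹ := by rw [h1]
      _ = _ := by group
  · have h4T := hT4.trans (Subgroup.card_dvd_of_le (le_inf
      (fun x hx => Subgroup.mem_centralizer_singleton_iff.2 (hycomm x hx)) hTC :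
        T ≤ Subgroup.centralizer ({y} : Set G) ⊓ C))
    have hPC : (P : Subgroup G) ≤ C := by
      have : IsCyclic ↥(P : Subgroup G) := isCyclic_of_prime_card hP
      have : IsMulCommutative ↥(P : Subgroup G) := IsCyclic.isMulCommutative
      exact Subgroup.le_centralizer _
    have h19 := Subgroup.card_dvd_of_le (le_inf hPH hPC)
    rw [hP] at h19
    refine Nat.Coprime.mul_dvd_of_dvd_of_dvd ?_ h4T h19
    rw [show (4 : ℕ) = 2 ^ 2 from rfl]
    exact Nat.Coprime.pow_left 2 ((Nat.coprime_primes Nat.prime_two hp.out).2 (Ne.symm hp2))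

/-- The centraliser of a nontrivial element of a non-abelian simple group is proper. -/
theorem centralizer_singleton_ne_top [IsSimpleGroup G] (hG : ¬ IsMulCommutative G) {y : G}
    (hy : y ≠ 1) : Subgroup.centralizer ({y} : Set G) ≠ ⊤ := by
  intro ht
  have hyc : y ∈ Subgroup.center G := by
    rw [Subgroup.mem_center_iff]
    intro g
    exact Subgroup.mem_centralizer_singleton_iff.1 (ht ▸ Subgroup.mem_top g)
  rcases IsSimpleGroup.eq_bot_or_eq_top_of_normal (Subgroup.center G) inferInstance with hz | hz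
  · rw [hz, Subgroup.mem_bot] at hyc; exact hy hyc
  · exact hG ⟨⟨fun a b => Subgroup.mem_center_iff.1 (hz ▸ Subgroup.mem_top b) a⟩⟩

/-- The normalizer in a subgroup of a Sylow subgroup contained in it. -/
theorem map_normalizer_subtype {p : ℕ} (P : Sylow p G) {H : Subgroup G}
    (hPH : (P : Subgroup G) ≤ H) :
    (Subgroup.normalizer (((P.subtype hPH : Sylow p H) : Subgroup H) : Set H)).map H.subtype =
      Subgroup.normalizer ((P : Subgroup G) : Set G) ⊓ H := by
  ext x
  constructor
  · rintro ⟨y, hy, rfl⟩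
    refine ⟨?_, y.2⟩
    change (y : G) ∈ Subgroup.normalizer ((P : Subgroup G) : Set G)
    rw [Subgroup.mem_normalizer_iff]
    intro z
    constructor
    · intro hz
      exact (Subgroup.mem_normalizer_iff.1 hy ⟨z, hPH hz⟩).1 hz
    · intro hz
      have hzH : z ∈ H := by
        have := H.mul_mem (H.mul_mem (H.inv_mem y.2) (hPH hz)) y.2
        simpa [mul_assoc] using this
      exact (Subgroup.mem_normalizer_iff.1 hy ⟨z, hzH⟩).2 hz
  · rintro ⟨hxN, hxH⟩
    refine ⟨⟨x, hxH⟩, ?_, rfl⟩
    rw [SetLike.mem_coe, Subgroup.mem_normalizer_iff]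
    intro z
    exact Subgroup.mem_normalizer_iff.1 hxN z.1

/-- An involution commuting with an element of odd prime order `p` forces index at least `p + 3`. -/
theorem index_gt_of_commute [IsSimpleGroup G] (hG : ¬ IsMulCommutative G) {p : ℕ} [hp : Fact p.Prime]
    (hp2 : p ≠ 2) {u y : G} (hu : orderOf u = p) (hy : orderOf y = 2) (hc : Commute u y)
    (K : Subgroup G) (hK : K ≠ ⊤) : p + 2 < K.index := by
  classical
  by_contra hle
  obtain ⟨f, hf⟩ := Cfsg.Agent.H30.exists_hom_alternating hG K hK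
  let φ : G →* Equiv.Perm (Fin K.index) := (alternatingGroup (Fin K.index)).subtype.comp f
  have hφ : Function.Injective φ := Subtype.val_injective.comp hf
  have h1 : φ y = 1 := by
    refine eq_one_of_commute_involution (p := p) hp2 (σ := φ u) ?_ ?_ ?_ (hc.map φ) ?_ ?_
    · rw [← map_pow, orderOf_dvd_iff_pow_eq_one.1 hu.dvd, map_one]
    · intro e
      have : u = 1 := hφ (e.trans (map_one φ).symm)
      rw [this, orderOf_one] at hu
      exact hp.out.ne_one hu.symm
    · rw [← map_pow, orderOf_dvd_iff_pow_eq_one.1 hy.dvd, map_one]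
    · rw [Fintype.card_fin]; omega
    · exact Equiv.Perm.mem_alternatingGroup.1 (f y).2
  have : y = 1 := hφ (h1.trans (map_one φ).symm)
  rw [this, orderOf_one] at hy
  norm_num at hy

end Cfsg.Agent.H31
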