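import Mathlib
import Cfsg.Agent.H31.SylowBasic
import Cfsg.Agent.H31.CommonInvolution

/-!
No simple group of order 2016.
-/

set_option autoImplicit false

namespace Cfsg.Agent.H31.Order2016

open scoped Pointwise

instance fact7 : Fact (Nat.Prime 7) := ⟨by norm_num⟩

theorem sylow_numbers : ∀ d ∈ Nat.divisors 288, d % 7 = 1 → d = 1 ∨ d = 8 ∨ d = 36 ∨ d = 288 := by
  decide +kernel

variable {G : Type*} [Group G] [Finite G] [IsSimpleGroup G]

/-- No simple group has order 2016. -/
theorem card_ne : Nat.card G ≠ 2016 := by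
  classical
  intro h
  have hG : ¬ IsMulCommutative G := Cfsg.Agent.H30.not_comm_of_not_prime (by rw [h]; norm_num)
  let P : Sylow 7 G := default
  have hP7 : Nat.card ↥(P : Subgroup G) = 7 := by
    simpa using Cfsg.Agent.H30.card_sylow_subgroup (a := 1) (m := 288) P (by rw [h]; norm_num)
      (by norm_num)
  obtain ⟨e, c, he, he1, hNe, hCe⟩ := Cfsg.Agent.H30.exists_automizer_of_prime_order hG 7 P hP7
  have hnN := Cfsg.Agent.H30.card_sylow_mul_normalizer 7 P
  rw [hNe, h] at hnN
  have he6 : e = 2 ∨ e = 3 ∨ e = 6 := by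
    have := Nat.le_of_dvd (by norm_num) he
    interval_cases e <;> omega
  obtain ⟨u, hu⟩ := exists_prime_orderOf_dvd_card' (G := ↥(P : Subgroup G)) 7 (by rw [hP7])
  rw [← Subgroup.orderOf_coe] at hu
  have hidxN := Cfsg.Agent.H30.two_mul_card_dvd_factorial_sylow hG 7 (by rw [h]; norm_num)
  rw [h] at hidxN
  rcases (sylow_numbers _ (Nat.mem_divisors.2 ⟨Cfsg.Agent.H30.card_sylow_dvd (a := 1) (m := 288)
      (by rw [h]; norm_num) (by norm_num), by norm_num⟩) (card_sylow_modEq_one 7 G)).resolve_left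
      (Cfsg.Agent.H30.card_sylow_ne_one hG 7 (by rw [h]; norm_num)) with hn | hn | hn <;>
    rw [hn] at hnN
  · -- eight points: the centraliser of a seven-cycle has odd order
    have : Fact (Nat.Prime 2) := ⟨Nat.prime_two⟩
    have hce : c * e = 36 := by linarith
    obtain ⟨y, hy⟩ := exists_prime_orderOf_dvd_card'
      (G := ↥(Subgroup.centralizer ((P : Subgroup G) : Set G))) 2
      (by rw [hCe]; rcases he6 with rfl | rfl | rfl <;> omega)
    rw [← Subgroup.orderOf_coe] at hy
    have hK : Subgroup.normalizer ((P : Subgroup G) : Set G) ≠ ⊤ := fun ht =>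
      Cfsg.Agent.H30.card_sylow_ne_one hG 7 (by rw [h]; norm_num)
        (P.card_eq_index_normalizer.trans (Subgroup.index_eq_one.2 ht))
    have := index_gt_of_commute hG (by norm_num) hu hy
      (Subgroup.mem_centralizer_iff.1 y.2 (u : G) u.2) _ hK
    have h8 : (Subgroup.normalizer ((P : Subgroup G) : Set G)).index = 8 :=
      P.card_eq_index_normalizer.symm.trans hn
    omega
  swap
  · -- two hundred and eighty-eight: the normalizer would centralise
    have hce : c * e = 1 := by linarith
    rcases he6 with rfl | rfl | rfl <;> omega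
  -- thirty-six
  have hce : c * e = 8 := by linarith
  obtain ⟨rfl, rfl⟩ : e = 2 ∧ c = 4 := by rcases he6 with rfl | rfl | rfl <;> omega
  have hN56 : Nat.card ↥(Subgroup.normalizer ((P : Subgroup G) : Set G)) = 56 := by rw [hNe]
  obtain ⟨y, Q, hy1, hQP, hPH, hQH, h28⟩ := exists_centralizer_two_sylow (p := 7) (a := 5) (m := 7)
    (l := 63) (by norm_num) P hP7 (by rw [hCe]; norm_num) (by rw [hN56]; norm_num) (by norm_num)
    (by rw [h]; norm_num) (by norm_num) (by norm_num)
  set H := Subgroup.centralizer ({y} : Set G) with hH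
  have hHtop : H ≠ ⊤ := centralizer_singleton_ne_top hG hy1
  set C := Subgroup.centralizer ((P : Subgroup G) : Set G) with hC
  set N := Subgroup.normalizer ((P : Subgroup G) : Set G) with hN
  have hCN : C ≤ N := Subgroup.centralizer_le_normalizer _
  let PH : Sylow 7 H := P.subtype hPH
  set NH := Subgroup.normalizer ((PH : Subgroup H) : Set H) with hNH
  have hkeq : Nat.card ↥NH = Nat.card ↥(N ⊓ H : Subgroup G) := by
    rw [← map_normalizer_subtype P hPH, Subgroup.card_map_of_injective H.subtype_injective]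
  have hk28 : 28 ∣ Nat.card ↥NH :=
    hkeq ▸ h28.trans (Subgroup.card_dvd_of_le (by rw [inf_comm N]; exact inf_le_inf_left _ hCN))
  have hk56 : Nat.card ↥NH ∣ 56 := hkeq ▸ hN56 ▸ Subgroup.card_dvd_of_le inf_le_left
  have hnk : Nat.card (Sylow 7 H) * Nat.card ↥NH = Nat.card ↥H :=
    Cfsg.Agent.H30.card_sylow_mul_normalizer 7 PH
  have hn1 : Nat.card (Sylow 7 H) ≠ 1 := by
    intro h1
    have := (Nat.card_eq_one_iff_unique.1 h1).1
    exact hQP (Sylow.subtype_injective (hP := hQH) (hQ := hPH) (Subsingleton.elim _ _))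
  have hndvd : Nat.card (Sylow 7 H) ∣ 288 := by
    have h2 : Nat.card (Sylow 7 H) ∣ 7 * 288 :=
      (Dvd.intro _ hnk).trans ((H.card_subgroup_dvd_card).trans (by rw [h]))
    refine Nat.Coprime.dvd_of_dvd_mul_left ?_ h2
    refine ((show Nat.Prime 7 by norm_num).coprime_iff_not_dvd.2 fun hd => ?_).symm
    have : Nat.card (Sylow 7 H) % 7 = 1 := card_sylow_modEq_one 7 H
    omega
  have hidx : Nat.card (Sylow 7 H) * Nat.card ↥NH * H.index = 2016 := by
    rw [hnk, Subgroup.card_mul_index, h]
  have hfac := Cfsg.Agent.H30.two_mul_card_dvd_factorial hG H hHtop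
  rw [h] at hfac
  obtain ⟨j, hj⟩ := hk28
  have hj2 : j = 1 ∨ j = 2 := by
    have := Nat.le_of_dvd (by norm_num) hk56
    have : 0 < Nat.card ↥NH := Nat.card_pos
    omega
  rcases (sylow_numbers _ (Nat.mem_divisors.2 ⟨hndvd, by norm_num⟩)
      (card_sylow_modEq_one 7 H)).resolve_left hn1 with e | e | e <;> rw [e, hj] at hidx
  · -- index nine
    have h9 : H.index = 9 := by
      rcases hj2 with rfl | rfl <;> omega
    have : Fact (Nat.Prime 2) := ⟨Nat.prime_two⟩
    obtain ⟨z, hz⟩ := exists_prime_orderOf_dvd_card' (G := ↥(H ⊓ C : Subgroup G)) 2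
      ((show 2 ∣ 4 * 7 by norm_num).trans h28)
    rw [← Subgroup.orderOf_coe] at hz
    have := index_gt_of_commute hG (by norm_num) hu hz
      (Subgroup.mem_centralizer_iff.1 z.2.2 (u : G) u.2) H hHtop
    omega
  · have hi : H.index ≤ 2 := by rcases hj2 with rfl | rfl <;> omega
    interval_cases H.index <;> norm_num [Nat.factorial] at hfac
  · have hi : H.index ≤ 1 := by rcases hj2 with rfl | rfl <;> omega
    interval_cases H.index <;> norm_num [Nat.factorial] at hfac

end Cfsg.Agent.H31.Order2016
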